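import Mathlib
import Cfsg.Agent.H8.GenES
import Cfsg.Agent.H8.Meta

/-!
Strongly closed generalized extraspecial subgroups.
-/

set_option autoImplicit false

namespace Cfsg.Agent.H8

open Equiv Cfsg.Fus Cfsg.FusionSystem Subgroup

variable {Ω : Type*} [Group Ω] {S P Q : Subgroup Ω} {F : FusionSystem S} {p : ℕ}

/-- Two transvections of `Q` conjugate into `Aut_P(Q)` with different directions do not fix each
other's directions. -/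
theorem conj_cj_ne [hp : Fact p.Prime] [Finite S] (hS : IsPGroup p S) (hP : F.StronglyClosed P)
    (hr : F.IsReceptive Q) (ha : F.IsFullyAutomized p Q) {z : Ω} (hz : z ∈ Q) (hzp : z ^ p = 1)
    (hc : ∀ x ∈ Q, ∀ y ∈ Q, x * y = y * x)
    (hcomm : ∀ g ∈ P, ∀ x ∈ Q, x⁻¹ * (g * x * g⁻¹) ∈ zpowers z) {g : Ω} (hg : g ∈ P)
    (hgz : cj g z = z) (hgC : g ∉ centralizer (Q : Set Ω)) {γ : Perm Ω} (hγ : F.Iso Q Q γ)
    (hγz : γ z ∉ zpowers z) : cj g (γ⁻¹ z) ≠ γ⁻¹ z := fun h => by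
  have hQS := hγ.le_left
  haveI := finite_of_le hQS
  have hzQ : zpowers z ≤ Q := zpowers_le.2 hz
  have hn : g ∈ normalizer (Q : Set Ω) := mem_normalizer_of_finite fun x hx => by
    simpa using Q.mul_mem hx (hzQ (hcomm g hg x hx))
  have ht : cj g ∈ trivOn (zpowers z) Q := ⟨cj_mem_autStab.2 hn, hcomm g hg⟩
  have ht' := conj_mem_trivOn_zpowers hγ.mem_autStab hz ht
  have hz' := hγ.mem hz
  have hW : zpowers z ⊔ zpowers (γ z) ≤ Q := sup_le hzQ (zpowers_le.2 hz')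
  haveI := finite_of_le hW
  have hiso := F.iso_cj hQS (hP.1 hg) hn
  have hmono : ∀ {A B : Subgroup Ω} {σ : Perm Ω}, A ≤ B → σ ∈ trivOn A Q → σ ∈ trivOn B Q :=
    fun h1 h2 => ⟨h2.1, fun x hx => h1 (h2.2 x hx)⟩
  have hres : ∀ {σ : Perm Ω}, F.Iso Q Q σ → σ ∈ trivOn (zpowers z ⊔ zpowers (γ z)) Q →
      σ ∈ autStab (zpowers z ⊔ zpowers (γ z)) := fun h1 h2 =>
    ⟨h1.homOn.mono hW, mem_setStab_of_finite fun x hx => by
      simpa using mul_mem hx (h2.2 x (hW hx))⟩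
  have hfix : ∀ {σ : Perm Ω}, F.Iso Q Q σ → ∀ {y : Ω}, y ∈ Q → σ y = y → σ ∈ fixP (zpowers y) := by
    rintro σ h1 y hy h2 _ ⟨k, rfl⟩
    rw [h1.homOn.map_zpow hy, h2]
  obtain ⟨χ, hχ, h1⟩ := ha.exists_conj (A := F.stab Q ⊓ fixP (zpowers z) ⊓
      trivOn (zpowers z) (zpowers z ⊔ zpowers (γ z)) ⊓ trivOn (zpowers z ⊔ zpowers (γ z)) Q)
    (inf_le_left.trans (inf_le_left.trans inf_le_left)) fun σ hσ => by
      obtain ⟨k, hk⟩ := exists_pow_mem_fixP_of_trivOn (isPGroup_of_le hS (hW.trans hQS)) hσ.1.2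
        (k := 0) (by simpa using hσ.1.1.2)
      exact exists_pow_mem_fixP_of_trivOn (isPGroup_of_le hS hQS) hσ.2 (fixP_anti inf_le_left hk)
  obtain ⟨x, hx, hx1⟩ : ∃ x ∈ Q, x⁻¹ * (g * x * g⁻¹) ≠ 1 := by
    by_contra! h2
    exact hgC fun x hx => (mul_inv_eq_iff_eq_mul.1 (inv_mul_eq_one.1 (h2 x hx)).symm).symm
  have key : ∀ φ, F.Iso Q Q φ → φ * cj g * φ⁻¹ ∈ innS S Q → φ z ∈ zpowers z := fun φ hφ h2 => by
    obtain ⟨g', hg', h3⟩ := exists_conj_elt_of_sc hP hr hφ hg hn h2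
    have h4 := hcomm g' hg' _ (hφ.mem hx)
    rw [← h3 x hx, ← hφ.homOn.map_inv hx, ← hφ.homOn.map_mul (Q.inv_mem hx)
      (conj_mem_of_mem_normalizer hn hx)] at h4
    obtain ⟨k, hk⟩ := mem_zpowers_of_prime hzp (hcomm g hg x hx) hx1 (mem_zpowers z)
    have h5 := zpow_mem h4 k
    rwa [← hφ.homOn.map_zpow (hzQ (hcomm g hg x hx)), show _ ^ k = z from hk] at h5
  have h2 := key χ hχ (h1 _ ⟨⟨⟨hiso.mem_stab, hfix hiso hz hgz⟩,
    hres hiso (hmono le_sup_left ht), fun y hy => ht.2 y (hW hy)⟩, hmono le_sup_left ht⟩)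
  have h4 : (γ * cj g * γ⁻¹) z = z := by rw [Perm.mul_apply, Perm.mul_apply, h, perm_apply_inv_self]
  have h5 : γ * cj g * γ⁻¹ ∈ fixP (zpowers z ⊔ zpowers (γ z)) :=
    ((hγ.conj hiso).homOn.mono hW).eqOn_sup (homOn_id _) (hfix (hγ.conj hiso) hz h4)
      (hfix (hγ.conj hiso) hz' (by simp only [Perm.mul_apply, perm_inv_apply_self, hgz]))
  have h3 := key (χ * γ) (hγ.trans hχ) (by
    simpa [mul_assoc] using h1 _ ⟨⟨⟨(hγ.conj hiso).mem_stab, fixP_anti le_sup_left h5⟩,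
      fixP_le_autStab _ h5, fun y hy => by simp [h5 y hy]⟩, hmono le_sup_right ht'⟩)
  by_cases hz1 : z = 1
  · exact hγz (by rw [hz1, hγ.homOn.map_one]; exact one_mem _)
  obtain ⟨k, hk⟩ := mem_zpowers_of_prime hzp h2 (fun h6 => hz1 ((hχ.isMap.apply_eq_one hz).1 h6)) h3
  exact hγz ⟨k, χ.injective (by rw [hχ.homOn.map_zpow hz]; exact hk)⟩

theorem normal_or_genES [hp : Fact p.Prime] [Finite S] (hP : F.StronglyClosed P)
    (hF : F.IsSaturated p) (hS : IsPGroup p S) {z : P} (ord : orderOf z = p) (cen : z ∈ center P)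
    (pow : ∀ x : P, x ^ p ∈ zpowers z) (comm : ∀ x y : P, x * y * x⁻¹ * y⁻¹ ∈ zpowers z) :
    F.IsNormal P ∨ ∃ g w : P, GenES p z g w ∧ w ^ p = 1 ∧ (p ≠ 2 → g ^ p = 1) := by
  refine (em _).imp_right fun h => ?_
  obtain ⟨Q, hQ⟩ := exists_bad hP hF hS h
  have hQS := hQ.lt.le.trans hP.1
  haveI := finite_of_le hP.1
  haveI := finite_of_le hQS
  have hQp := isPGroup_of_le hS hQS
  have hZQ : ∀ c ∈ center P, (c : Ω) ∈ Q := fun c hc => hQ.cent ⟨c.2, fun x hx =>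
    congrArg Subtype.val (mem_center_iff.1 hc ⟨x, hQ.lt.le hx⟩)⟩
  have hz := hZQ z cen
  have hzp : (z : Ω) ^ p = 1 := congrArg Subtype.val (ord ▸ pow_orderOf_eq_one z : z ^ p = 1)
  have hcomm : ∀ g ∈ P, ∀ x ∈ P, x⁻¹ * (g * x * g⁻¹) ∈ zpowers (z : Ω) := fun g hg x hx => by
    simpa [mul_assoc] using mem_zpowers_coe.1 (comm ⟨x, hx⟩⁻¹ ⟨g, hg⟩)
  have hcomm' := fun g hg x (hx : x ∈ Q) => hcomm g hg x (hQ.lt.le hx)
  have hF1 : ∀ c ∈ zpowers (z : Ω), c ∈ (frattini Q).map Q.subtype → c = 1 := fun c h1 h2 => by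
    by_contra h3
    exact hQ.lt.not_ge fun g hg => hQ.mem_of_frattini hP.1 hS hg fun x hx =>
      zpowers_le.2 h2 (mem_zpowers_of_prime hzp h1 h3 (hcomm' g hg x hx))
  have he : ∀ x ∈ Q, x ^ p = 1 := fun x hx =>
    hF1 _ (mem_zpowers_coe.1 (pow ⟨x, hQ.lt.le hx⟩)) (pow_mem_map_frattini hQp hx)
  have hc : ∀ x ∈ Q, ∀ y ∈ Q, x * y = y * x := fun x hx y hy =>
    commutatorElement_eq_one_iff_mul_comm.1 (hF1 _ (mem_zpowers_coe.1
      (comm ⟨x, hQ.lt.le hx⟩ ⟨y, hQ.lt.le hy⟩)) ⟨_, comm_mem_frattini hQp ⟨x, hx⟩ ⟨y, hy⟩, rfl⟩)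
  have hgz : ∀ g ∈ P, cj g (z : Ω) = z := fun g hg =>
    mul_inv_eq_iff_eq_mul.2 (congrArg Subtype.val (mem_center_iff.1 cen ⟨g, hg⟩))
  obtain ⟨g, hg, hn, hgQ, ho⟩ := hQ.exists_elt hP.1 hS
  obtain ⟨γ, hγ, hγz⟩ : ∃ γ, F.Iso Q Q γ ∧ γ z ∉ zpowers (z : Ω) := by
    by_contra! h1
    refine ho ((F.iso_cj hQS (hP.1 hg) hn).mem_opStab_of_chain hS (n := 2)
      (C := fun i => if i = 0 then ⊥ else if i = 1 then zpowers (z : Ω) else Q)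
      (fun i _ => by split_ifs <;> simp [hz]) rfl rfl (fun τ hτ i _ x hx => ?_) fun i hi x hx => ?_)
    · split_ifs at hx ⊢
      · rw [mem_bot.1 hx, hτ.homOn.map_one]; exact one_mem _
      · obtain ⟨k, rfl⟩ := hx
        rw [hτ.homOn.map_zpow hz]; exact zpow_mem (h1 τ hτ) k
      · exact hτ.mem hx
    · interval_cases i
      · obtain ⟨k, rfl⟩ := hx
        rw [(homOn_cj g ⊤).map_zpow trivial, hgz g hg]; simp
      · exact hcomm' g hg x hx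
  have hγz' : γ⁻¹ z ∉ zpowers (z : Ω) := fun h1 => by
    obtain ⟨k, hk⟩ := mem_zpowers_of_prime hzp h1 (fun h2 => hγz (by
      rw [(hγ.symm.isMap.apply_eq_one hz).1 h2, hγ.homOn.map_one]; exact one_mem _)) (mem_zpowers _)
    refine hγz ⟨k, ?_⟩
    conv_rhs => rw [← hk, hγ.homOn.map_zpow (hγ.inv_mem hz), perm_apply_inv_self]
  have hr := hQ.fn.isReceptive hF hS
  have key : ∀ γ, F.Iso Q Q γ → γ z ∉ zpowers (z : Ω) → ∀ g ∈ P, g ∉ Q →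
      cj g (γ⁻¹ z) ≠ γ⁻¹ z := fun γ h1 h2 g hg hgQ => conj_cj_ne hS hP hr
    (hQ.fn.isFullyAutomized hF hS) hz hzp hc hcomm' hg (hgz g hg) (fun h3 => hgQ (hQ.cent ⟨hg, h3⟩))
    h1 h2
  have h1 := key _ hγ hγz g hg hgQ
  have h2 := key _ hγ.symm hγz'
  rw [inv_inv] at h2
  have hw := hγ.mem hz
  set w := γ z
  have hzc : ∀ c ∈ zpowers (z : Ω), ∀ x ∈ P, Commute c x := by
    rintro _ ⟨k, rfl⟩ x hx
    exact (show Commute x z from mul_inv_eq_iff_eq_mul.1 (hgz x hx)).symm.zpow_left k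
  have hc1 : w⁻¹ * (g * w * g⁻¹) ≠ 1 := fun h3 => h2 g hg hgQ (inv_mul_eq_one.1 h3).symm
  have hgen : ∀ x ∈ P, ∃ i : ℤ, (g ^ i)⁻¹ * x ∈ Q := fun x hx => by
    obtain ⟨i, hi⟩ := mem_zpowers_of_prime hzp (hcomm' g hg w hw) hc1 (hcomm' x hx w hw)
    refine ⟨i, by_contra fun h3 => h2 _ (P.mul_mem (P.inv_mem (P.zpow_mem hg i)) hx) h3 ?_⟩
    have h4 : w⁻¹ * g ^ i * w = (w⁻¹ * (g * w * g⁻¹)) ^ i * g ^ i := by
      rw [← (hzc _ (hcomm' g hg w hw) g hg).mul_zpow]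
      simpa [mul_assoc] using (conj_zpow (i := i) (a := w⁻¹) (b := g)).symm
    rw [show (w⁻¹ * (g * w * g⁻¹)) ^ i = _ from hi] at h4
    calc cj ((g ^ i)⁻¹ * x) w = (g ^ i)⁻¹ * w * (w⁻¹ * (x * w * x⁻¹) * g ^ i) := by
          rw [cj_apply]; group
      _ = w := by rw [← h4]; group
  refine ⟨⟨g, hg⟩, ⟨w, hQ.lt.le hw⟩, ⟨ord, cen, pow, comm, fun h3 => h2 g hg hgQ
    (mul_inv_eq_iff_eq_mul.2 (congrArg Subtype.val h3)), fun c hc => Subtype.ext (he _ (hZQ c hc)),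
    fun x => ?_⟩, Subtype.ext (he w hw), fun hp2 => Subtype.ext
      (pow_eq_one_of_transvection hS hp2 hP hr hQ.lt.le hQ.cent hc he hg hz
        ⟨cj_mem_autStab.2 hn, hcomm' g hg⟩ (hgz g hg) hγ (h2 g hg hgQ) h1
        (mem_zpowers_coe.1 (pow ⟨g, hg⟩)))⟩
  obtain ⟨i, hi⟩ := hgen x x.2
  set q := (g ^ i)⁻¹ * x with hq
  obtain ⟨j, hj⟩ := mem_zpowers_of_prime hzp (hcomm' g hg w hw) hc1 (hcomm' g hg q hi)
  have hcQ := Q.mul_mem (Q.inv_mem (Q.zpow_mem hw j)) hi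
  have h3 : g * ((w ^ j)⁻¹ * q) * g⁻¹ = (w ^ j)⁻¹ * q := by
    have h4 : g * w ^ j * g⁻¹ = w ^ j * (w⁻¹ * (g * w * g⁻¹)) ^ j := by
      rw [← (hzc _ (hcomm' g hg w hw) w (hQ.lt.le hw)).symm.mul_zpow, mul_inv_cancel_left, conj_zpow]
    rw [show (w⁻¹ * (g * w * g⁻¹)) ^ j = _ from hj] at h4
    calc _ = (g * w ^ j * g⁻¹)⁻¹ * q * (q⁻¹ * (g * q * g⁻¹)) := by group
      _ = _ := by
        rw [h4, mul_inv_rev, mul_assoc _ _ q, mul_assoc,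
          ← (hzc _ (hcomm' g hg q hi) _ (hQ.lt.le hcQ)).eq, inv_mul_cancel_left]
  refine ⟨i, j, ⟨_, hQ.lt.le hcQ⟩, mem_center_iff.2 fun y => Subtype.ext ?_,
    Subtype.ext (by simp [hq, mul_assoc])⟩
  obtain ⟨l, hl⟩ := hgen y y.2
  have h4 := (Commute.zpow_left (mul_inv_eq_iff_eq_mul.1 h3) l).mul_left (hc _ hl _ hcQ)
  simpa using h4.eq

end Cfsg.Agent.H8
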