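import Mathlib

/-!
A `p`-group on which a norm map is nontrivial has the wreath product `C_p ≀ C_p` as a quotient.
-/

set_option autoImplicit false

namespace Cfsg.Agent.H8

open MulAction

variable {p : ℕ} [hp : Fact p.Prime]

/-- Convolution with a vector of nonzero sum is injective. -/
theorem conv_injective {C : Type*} [Group C] [Fintype C] (hC : IsPGroup p C) (w : C → ZMod p)
    (hw : ∑ c, w c ≠ 0) {a : C → ZMod p} (ha : ∀ c, ∑ d, a d * w (d * c) = 0) : a = 0 := by
  classical
  let K : AddSubgroup (C → ZMod p) :=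
    { carrier := {a | ∀ c, ∑ d, a d * w (d * c) = 0}
      zero_mem' := fun c => by simp
      add_mem' := fun {a b} ha hb c => by
        simp only [Pi.add_apply, add_mul, Finset.sum_add_distrib, ha c, hb c, add_zero]
      neg_mem' := fun {a} ha c => by
        simp only [Pi.neg_apply, neg_mul, Finset.sum_neg_distrib, ha c, neg_zero] }
  letI : MulAction C K :=
    { smul := fun g a => ⟨fun d => a.1 (d * g), fun c => by
        rw [← a.2 (g⁻¹ * c)]
        exact Fintype.sum_equiv (Equiv.mulRight g) _ _ fun d => by simp [mul_assoc]⟩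
      one_smul := fun a => Subtype.ext (funext fun d => congrArg a.1 (mul_one d))
      mul_smul := fun g h a => Subtype.ext (funext fun d => congrArg a.1 (mul_assoc d g h).symm) }
  by_contra hne
  have hd : p ∣ Nat.card K := by
    have h1 : addOrderOf (⟨a, ha⟩ : K) = p := addOrderOf_eq_prime
      (Subtype.ext (funext fun d => by simp)) fun h => hne (congrArg Subtype.val h)
    exact (dvd_of_eq h1.symm).trans (addOrderOf_dvd_natCard _)
  obtain ⟨b, hb, hb0⟩ := hC.exists_fixed_point_of_prime_dvd_card_of_fixed_point K hd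
    (a := 0) fun _ => rfl
  have h2 : ∀ g, b.1 g = b.1 1 := fun g => by
    have := congrFun (congrArg Subtype.val (hb g)) 1
    rw [← this]
    exact congrArg b.1 (one_mul g).symm
  have h3 := b.2 1
  simp only [mul_one, fun d => h2 d, ← Finset.mul_sum, mul_eq_zero, hw, or_false] at h3
  exact hb0 (Subtype.ext (funext fun d => by rw [h2 d, h3]; rfl))

theorem surjective_of_norm_ne_one {C M : Type*} [Group C] [Fintype C] [Group M]
    (hC : IsPGroup p C) (χ : C → M →* Multiplicative (ZMod p))
    (hχ : ∀ c q, ∃ q', ∀ d, χ d q' = χ (c * d) q) {u : M} (h : ∏ c, χ c u ≠ 1) :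
    Function.Surjective (MonoidHom.pi χ) := by
  classical
  let T : (C → ZMod p) →+ (C → ZMod p) :=
    { toFun := fun a c => ∑ d, a d * (χ (d * c) u).toAdd
      map_zero' := funext fun c => by simp
      map_add' := fun a b => funext fun c => by simp [add_mul, Finset.sum_add_distrib] }
  have hT : Function.Injective T := (injective_iff_map_eq_zero T).2 fun a ha =>
    conv_injective hC (fun c => (χ c u).toAdd) (fun h0 => h (by
      rw [← toAdd_prod] at h0; exact h0)) (congrFun ha)
  intro v
  obtain ⟨a, ha⟩ := Finite.surjective_of_injective hT fun c => (v c).toAdd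
  choose q hq using fun c => hχ c u
  have : v = ∏ d, MonoidHom.pi χ (q d) ^ (a d).val := funext fun c => by
    apply Multiplicative.toAdd.injective
    rw [← congrFun ha c, Finset.prod_apply, toAdd_prod]
    exact Finset.sum_congr rfl fun d _ => by simp [hq]
  rw [this]
  exact (MonoidHom.pi χ).range.prod_mem fun d _ => Subgroup.pow_mem _ (MonoidHom.mem_range.2 ⟨_, rfl⟩) _

theorem card_sylow_perm_sq (W : Sylow p (Equiv.Perm (Fin (p ^ 2)))) :
    Nat.card W = p ^ (p + 1) := by
  rw [W.card_eq_multiplicity, Nat.card_perm, Nat.card_eq_fintype_card, Fintype.card_fin,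
    Nat.factorization_def _ hp.out, sq, padicValNat_factorial_mul]
  have := padicValNat_factorial_mul (p := p) 1
  rw [mul_one] at this
  rw [this]
  simp [add_comm]

/-- A `p`-group with a subgroup of index `p ^ 2` whose core has index at least `p ^ (p + 1)` maps
onto the wreath product. -/
theorem exists_wreath_of_core {G : Type*} [Group G] [Finite G] (hG : IsPGroup p G) (L : Subgroup G)
    (hL : L.index = p ^ 2) (hc : p ^ (p + 1) ≤ L.normalCore.index) :
    ∃ (W : Sylow p (Equiv.Perm (Fin (p ^ 2)))) (f : G →* (W : Subgroup (Equiv.Perm (Fin (p ^ 2))))),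
      Function.Surjective f := by
  let e : G ⧸ L ≃ Fin (p ^ 2) := Finite.equivFinOfCardEq hL
  let φ : G →* Equiv.Perm (Fin (p ^ 2)) :=
    (Equiv.permCongrHom e).toMonoidHom.comp (toPermHom G (G ⧸ L))
  obtain ⟨W, hW⟩ := (hG.of_surjective φ.rangeRestrict φ.rangeRestrict_surjective).exists_le_sylow
  have hk : φ.ker = L.normalCore := by
    rw [Subgroup.normalCore_eq_ker, ← MonoidHom.comap_ker,
      (MonoidHom.ker_eq_bot_iff _).2 (Equiv.permCongrHom e).injective]
    rfl
  have h1 : φ.range = W := Subgroup.eq_of_le_of_card_ge hW (by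
    rw [card_sylow_perm_sq, ← Subgroup.index_ker, hk]; exact hc)
  refine ⟨W, φ.codRestrict _ fun g => hW ⟨g, rfl⟩, fun w => ?_⟩
  obtain ⟨g, hg⟩ := h1.ge w.2
  exact ⟨g, Subtype.ext hg⟩

/-- The main criterion. -/
theorem exists_wreath_of_norm {G B : Type*} [Group G] [Finite G] [CommGroup B] (hG : IsPGroup p G)
    (hB : Nat.card B = p) (M : Subgroup G) [hM : M.Normal] [Fintype (G ⧸ M)] (hi : M.index = p)
    (μ : M →* B) (u : M)
    (h : ∏ c : G ⧸ M, μ ⟨c.out⁻¹ * u * c.out, hM.conj_mem' _ u.2 _⟩ ≠ 1) :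
    ∃ (W : Sylow p (Equiv.Perm (Fin (p ^ 2)))) (f : G →* (W : Subgroup (Equiv.Perm (Fin (p ^ 2))))),
      Function.Surjective f := by
  let e : B ≃* Multiplicative (ZMod p) := mulEquivOfPrimeCardEq hB (by simp)
  let ψ : G → M →* Multiplicative (ZMod p) := fun g =>
    (e.toMonoidHom.comp μ).comp (MulAut.conjNormal g⁻¹ : MulAut M).toMonoidHom
  have hψ : ∀ g g' : G, (g : G ⧸ M) = g' → ∀ q, ψ g q = ψ g' q := fun g g' hg q => by
    have h1 := QuotientGroup.eq.1 hg
    have h2 : (MulAut.conjNormal g'⁻¹ : MulAut M) q =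
        (⟨_, h1⟩ : M)⁻¹ * (MulAut.conjNormal g⁻¹ : MulAut M) q * ⟨_, h1⟩ :=
      Subtype.ext (by simp [mul_assoc])
    change e (μ ((MulAut.conjNormal g⁻¹ : MulAut M) q)) = e (μ ((MulAut.conjNormal g'⁻¹ : MulAut M) q))
    rw [h2, μ.map_mul, μ.map_mul, μ.map_inv, inv_mul_cancel_comm]
  have hs := surjective_of_norm_ne_one (hG.to_quotient M) (fun c : G ⧸ M => ψ c.out)
    (fun c q => ⟨(MulAut.conjNormal c.out⁻¹⁻¹⁻¹ : MulAut M) q, fun d => by
      rw [hψ (c * d).out (c.out * d.out) (by simp)]
      exact congrArg (fun x => e (μ x)) (Subtype.ext (by simp [mul_assoc]))⟩) (u := u) (fun h0 => h (by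
        apply e.injective
        rw [map_prod, map_one, ← h0]
        exact Finset.prod_congr rfl fun c _ => congrArg (fun x => e (μ x)) (Subtype.ext (by simp))))
  have hμ : Function.Surjective μ := by
    haveI : Finite B := Nat.finite_of_card_ne_zero (hB ▸ hp.out.ne_zero)
    haveI := isSimpleGroup_of_prime_card hB
    refine MonoidHom.range_eq_top.1 ((eq_bot_or_eq_top μ.range).resolve_left fun h0 => h ?_)
    exact Finset.prod_eq_one fun c _ => Subgroup.mem_bot.1 (h0 ▸ ⟨_, rfl⟩)
  refine exists_wreath_of_core hG (μ.ker.map M.subtype) ?_ ?_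
  · rw [Subgroup.index_map_subtype, Subgroup.index_ker, MonoidHom.range_eq_top.2 hμ,
      Subgroup.card_top, hB, hi, sq]
  · have h1 : (μ.ker.map M.subtype).normalCore ≤
        (MonoidHom.pi fun c : G ⧸ M => ψ c.out).ker.map M.subtype := fun x hx => by
      obtain ⟨y, -, rfl⟩ := Subgroup.normalCore_le _ hx
      refine ⟨y, funext fun c => ?_, rfl⟩
      obtain ⟨z, hz, h2⟩ := hx c.out⁻¹
      change e (μ ((MulAut.conjNormal c.out⁻¹ : MulAut M) y)) = 1
      rw [show (MulAut.conjNormal c.out⁻¹ : MulAut M) y = z from Subtype.ext h2.symm,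
        MonoidHom.mem_ker.1 hz, map_one]
    refine le_trans (le_of_eq ?_) (Nat.le_of_dvd
      (Nat.pos_of_ne_zero Subgroup.index_ne_zero_of_finite) (Subgroup.index_dvd_of_le h1))
    rw [Subgroup.index_map_subtype, Subgroup.index_ker, MonoidHom.range_eq_top.2 hs,
      Subgroup.card_top, Nat.card_fun, hi, ← Subgroup.index, hi]
    simp [pow_succ]

end Cfsg.Agent.H8
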