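import Mathlib
import Cfsg.Agent.H8.Tate
import Cfsg.Agent.H8.Wreath

/-!
Yoshida's theorem for saturated fusion systems.
-/

set_option autoImplicit false

namespace Cfsg.Agent.H8

open Equiv Cfsg.Fus Cfsg.FusionSystem MulAction
open scoped commutatorElement

section general

variable {Γ : Type*} [Group Γ] {X : Type*} [MulAction Γ X] {A : Type*} [CommGroup A]
  {N : Subgroup Γ} {lam : Γ → A}

theorem sInv_orbit (K : Subgroup Γ) (x : X) : SInv K (orbit K x) :=
  fun n hn _ hy => mem_orbit_of_mem_orbit (⟨n, hn⟩ : K) hy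

theorem trf_orbit_eq_prod [Finite X] (hN : N.Normal) (hf : FreeOn N X) (hl : InvHom N lam)
    {C : Type*} [Group C] [Fintype C] (π : Γ →* C) (hπ : N ≤ π.ker) (x : X)
    (hx : stabilizer Γ x ≤ π.ker) (s : C → Γ) (hs : ∀ c, π (s c) = c) {γ : Γ} (hγ : γ ∈ π.ker) :
    trf N lam (orbit Γ x) γ = ∏ c, trf N lam (orbit π.ker x) ((s c)⁻¹ * γ * s c) := by
  have hmem : ∀ c (g : Γ), (s c)⁻¹ • g • x ∈ orbit π.ker x ↔ π g = c := fun c g => by
    constructor
    · rintro ⟨k, hk⟩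
      have h1 : g⁻¹ * s c * k ∈ stabilizer Γ x := by
        rw [mem_stabilizer_iff, mul_smul, show (k : Γ) • x = _ from hk, mul_smul, smul_inv_smul,
          inv_smul_smul]
      have h2 := MonoidHom.mem_ker.1 (hx h1)
      rw [map_mul, map_mul, MonoidHom.mem_ker.1 k.2, mul_one, map_inv, hs, inv_mul_eq_one] at h2
      exact h2
    · intro h
      exact ⟨⟨(s c)⁻¹ * g, by rw [MonoidHom.mem_ker, map_mul, map_inv, hs, h, inv_mul_cancel]⟩,
        mul_smul _ _ _⟩
  have hsub : ∀ c z, (s c)⁻¹ • z ∈ orbit π.ker x → z ∈ orbit Γ x := fun c z ⟨k, hk⟩ =>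
    ⟨s c * k, by
      change (s c * k) • x = z
      rw [mul_smul, show (k : Γ) • x = _ from hk, smul_inv_smul]⟩
  have hU : orbit Γ x = ⋃ c ∈ (Finset.univ : Finset C), {z | (s c)⁻¹ • z ∈ orbit π.ker x} := by
    ext z
    simp only [Finset.mem_univ, Set.iUnion_true, Set.mem_iUnion, Set.mem_ofPred_eq]
    exact ⟨fun ⟨g, hg⟩ => ⟨π g, hg ▸ (hmem _ g).2 rfl⟩, fun ⟨c, hc⟩ => hsub c z hc⟩
  have hk : ∀ c, ∀ k ∈ π.ker, (s c)⁻¹ * k * s c ∈ π.ker := fun c k hk =>
    (MonoidHom.normal_ker π).conj_mem' k hk _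
  rw [hU, trf, qprod_iUnion]
  · refine Finset.prod_congr rfl fun c _ => ?_
    rw [← trf_conj hN hf hl ((sInv_orbit _ x).mono hπ) (W := {z | (s c)⁻¹ • z ∈ orbit π.ker x})
      (fun n hn z hz => ?_) (fun _ => (sInv_orbit _ x).iff (hk c γ hγ)) (s c) fun z => by simp]
    · simp only [mul_assoc, mul_inv_cancel, mul_one, mul_inv_cancel_left]
      rfl
    · have := sInv_orbit _ x _ (hk c n (hπ hn)) _ hz
      simpa [mul_smul] using this
  · intro c _ d _ hcd
    refine Set.disjoint_left.2 fun z h1 h2 => hcd ?_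
    obtain ⟨g, rfl⟩ := hsub c z h1
    rw [← (hmem c g).1 h1, ← (hmem d g).1 h2]

theorem mem_stabilizer_of_mem_orbit {C : Type*} [Group C] (π : Γ →* C) {x z : X}
    (hx : stabilizer Γ x ≤ π.ker) (hz : z ∈ orbit Γ x) : stabilizer Γ z ≤ π.ker := by
  obtain ⟨g, rfl⟩ := hz
  intro d hd
  have h1 : g⁻¹ * d * g ∈ stabilizer Γ x := by
    rw [mem_stabilizer_iff, mul_smul, mul_smul, show d • g • x = g • x from hd, inv_smul_smul]
  have := (MonoidHom.normal_ker π).conj_mem _ (hx h1) g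
  simpa [mul_assoc] using this

end general

universe u

variable {Ω : Type u} [Group Ω] {S : Subgroup Ω} {F : FusionSystem S} {p : ℕ}

/-- second coordinate with values in `S` -/
def gsndS {T : Subgroup Ω} (hn : S ≤ Subgroup.normalizer (T : Set Ω)) : gam S T hn →* S :=
  gsnd.codRestrict S gsnd_mem

theorem exists_tauS_eq_one [Fact p.Prime] [Finite S] (hF : F.IsSaturated p) (hS : IsPGroup p S)
    {X : Type u} [MulAction (gam S S Subgroup.le_normalizer) X] [Finite X] {n : ℕ}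
    (h : CharSet F p Subgroup.le_normalizer X n) {K : Subgroup Ω} (h₁ : ⁅S, S⁆ ≤ K)
    (h₂ : K ≤ F.focalSubgroup) (h₃ : K ≠ F.focalSubgroup) :
    ∃ (B : Type u) (_ : CommGroup B) (θ : S →* B), Nat.card B = p ∧ Function.Surjective θ ∧
      (∀ x : S, (x : Ω) ∈ K → θ x = 1) ∧ ∀ x, h.tauS θ x = 1 := by
  obtain ⟨A, _, θ, hθ, hK⟩ := exists_comm_quot h₁
  haveI : Finite A := Finite.of_surjective θ hθ
  have hne : (h.tauS θ).range ≠ ⊤ := fun h3 => h₃ (le_antisymm h₂ fun x hx => by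
    have h4 : θ.ker ≤ (h.tauS θ).ker := fun x hx => h.tauS_eq_one hF hS θ (h₂ ((hK x).1 hx))
    have h6 : θ.ker = (h.tauS θ).ker := Subgroup.eq_of_le_of_card_ge h4 (by
      have h7 := θ.ker.card_mul_index
      rw [Subgroup.index_ker, MonoidHom.range_eq_top.2 hθ, ← h3, ← Subgroup.index_ker,
        ← (h.tauS θ).ker.card_mul_index] at h7
      exact (Nat.eq_of_mul_eq_mul_right
        (Nat.pos_of_ne_zero Subgroup.index_ne_zero_of_finite) h7).ge)
    refine (hK ⟨x, F.focalSubgroup_le hx⟩).1 ?_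
    rw [← MonoidHom.mem_ker, h6]
    exact h.tauS_eq_one hF hS θ hx)
  obtain ⟨M, hM1, hM2⟩ := (eq_top_or_exists_le_coatom (h.tauS θ).range).resolve_left hne
  refine ⟨A ⧸ M, inferInstance, (QuotientGroup.mk' M).comp θ,
    coatom_index (hS.of_surjective θ hθ) hM1, (QuotientGroup.mk'_surjective M).comp hθ,
    fun x hx => by rw [MonoidHom.comp_apply, (hK x).2 hx, map_one], fun x => ?_⟩
  rw [← h.map_tauS]
  exact (QuotientGroup.eq_one_iff _).2 (hM2 ⟨x, rfl⟩)

/-- Yoshida's theorem. -/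
theorem exists_wreath_of_focal [hp : Fact p.Prime] [Finite S] (hF : F.IsSaturated p)
    (hS : IsPGroup p S) {K : Subgroup Ω} (h₁ : ∀ σ, F.Iso S S σ → ∀ x ∈ S, x⁻¹ * σ x ∈ K)
    (h₂ : K ≤ F.focalSubgroup) (h₃ : K ≠ F.focalSubgroup) :
    ∃ (W : Sylow p (Equiv.Perm (Fin (p ^ 2)))) (f : S →* (W : Subgroup (Equiv.Perm (Fin (p ^ 2))))),
      Function.Surjective f := by
  classical
  obtain ⟨X, _, _, n, h⟩ := exists_charSet_top hF hS
  have h₀ : ⁅S, S⁆ ≤ K := Subgroup.commutator_le.2 fun a ha b hb => by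
    have := h₁ _ (F.iso_cj le_rfl hb (Subgroup.le_normalizer hb)) _ (S.inv_mem ha)
    simpa [commutatorElement_def, mul_assoc] using this
  obtain ⟨B, _, θ, hB, hθ, hK, hτ⟩ := exists_tauS_eq_one hF hS h h₀ h₂ h₃
  haveI : Finite B := Finite.of_surjective θ hθ
  haveI : Nontrivial B := Finite.one_lt_card_iff_nontrivial.1 (hB ▸ hp.out.one_lt)
  have hex : ∃ m, ∃ u : S, θ u ≠ 1 ∧ orderOf u = m := by
    obtain ⟨b, hb⟩ := exists_ne (1 : B)
    obtain ⟨u, rfl⟩ := hθ b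
    exact ⟨_, u, hb, rfl⟩
  obtain ⟨u, hu, hum⟩ := Nat.find_spec hex
  have hmin : ∀ v : S, orderOf v < orderOf u → θ v = 1 := fun v hv => by
    by_contra hne
    exact Nat.find_min hex (hum ▸ hv) ⟨v, hne, rfl⟩
  have hl := invHom_top θ
  have h4 := h.pow_mul_tauS θ u
  rw [hτ, mul_one] at h4
  obtain ⟨x, -, hx⟩ := exists_orbit_trf_ne_one (sInv_univ ⊤)
    (h4 ▸ fun h5 => hu (map_eq_one_of_pow_of_not_dvd hS θ h.not_dvd h5))
  have hO : SInv (⊤ : Subgroup (gam S S Subgroup.le_normalizer))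
      (orbit (gam S S Subgroup.le_normalizer) x) := fun g _ y hy => mem_orbit_of_mem_orbit g hy
  have hev : ∀ {y : Ω} {φ : Perm Ω} {P : Subgroup Ω}, F.IsMap P φ → y ∈ P →
      extFun θ (φ y) = extFun θ y → extFun θ (y * (φ y)⁻¹) = 1 := fun hφ hy h5 => by
    rw [homOn_extFun θ (hφ.le hy) (S.inv_mem (hφ.mem hy)), (homOn_extFun θ).map_inv (hφ.mem hy),
      h5, mul_inv_cancel]
  -- the stabilizer is not the graph of an automorphism of `S`
  have hP : (stabilizer (gam S S Subgroup.le_normalizer) x).map (gsndS _) ≠ ⊤ := fun h5 => hx (by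
    refine h.trf_gdiag_eq_one hl (hO.mono le_top) u (fun _ => hO.iff trivial) ?_
    rintro _ ⟨g, rfl⟩ φ k hφ hk
    have h6 : S ≤ (stabilizer (gam S S Subgroup.le_normalizer) (g • x)).map gsnd := fun y hy => by
      obtain ⟨d, hd, h7⟩ := h5.ge (Subgroup.mem_top ((gsndS _ g)⁻¹ * ⟨y, hy⟩ * gsndS _ g))
      refine ⟨g * d * g⁻¹, ?_, ?_⟩
      · rw [SetLike.mem_coe, mem_stabilizer_iff, mul_smul, inv_smul_smul, mul_smul,
          show d • x = x from hd]
      · rw [map_mul, map_mul, map_inv, show gsnd d = _ from congrArg Subtype.val h7]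
        change gsnd g * ((gsnd g)⁻¹ * y * gsnd g) * (gsnd g)⁻¹ = y
        group
    have h8 := hφ.mono h6
    have h9 := S.zpow_mem u.2 k
    refine hev h8 h9 ?_
    have h10 := hK ⟨_, S.mul_mem (S.inv_mem h9) (h8.mem h9)⟩
      (h₁ φ (h8.iso_self fun y hy => h8.mem hy) _ h9)
    rw [← extFun_coe θ] at h10
    change extFun θ ((u ^ k : Ω)⁻¹ * φ (u ^ k)) = 1 at h10
    rw [homOn_extFun θ (S.inv_mem h9) (h8.mem h9), (homOn_extFun θ).map_inv h9,
      inv_mul_eq_one] at h10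
    exact h10.symm)
  obtain ⟨M, hM1, hM2⟩ := (eq_top_or_exists_le_coatom _).resolve_left hP
  haveI := coatom_normal hS hM1
  haveI := Fintype.ofFinite (S ⧸ M)
  have hMi := coatom_index hS hM1
  let π : gam S S Subgroup.le_normalizer →* S ⧸ M := (QuotientGroup.mk' M).comp (gsndS _)
  have hπ : ∀ d, d ∈ π.ker ↔ gsndS _ d ∈ M := fun d => QuotientGroup.eq_one_iff _
  have hxπ : stabilizer _ x ≤ π.ker := fun d hd => (hπ d).2 (hM2 ⟨d, hd, rfl⟩)
  have huM : u ∈ M := by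
    by_contra hne
    refine hx (h.trf_gdiag_eq_one hl (hO.mono le_top) u (fun _ => hO.iff trivial)
      fun z hz φ k hφ hk => hev hφ hk ?_)
    obtain ⟨d, hd, h5⟩ := id hk
    have h6 : u ^ k ∈ M := by
      rw [← show gsndS _ d = u ^ k from Subtype.ext h5]
      exact (hπ d).1 (mem_stabilizer_of_mem_orbit π hxπ hz hd)
    have h7 : orderOf (u ^ k) < orderOf u := by
      refine lt_of_le_of_ne (Nat.le_of_dvd (orderOf_pos u) (orderOf_dvd_of_mem_zpowers ⟨k, rfl⟩))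
        fun h8 => hne ?_
      have h9 : Subgroup.zpowers (u ^ k) = Subgroup.zpowers u := Subgroup.eq_of_le_of_card_ge
        (Subgroup.zpowers_le.2 ⟨k, rfl⟩) (by rw [Nat.card_zpowers, Nat.card_zpowers, h8])
      exact Subgroup.zpowers_le.2 h6 (h9.ge (Subgroup.mem_zpowers u))
    rw [extFun_of_mem θ (hφ.mem hk), extFun_of_mem θ (hφ.le hk), hmin ⟨_, hφ.le hk⟩ h7, hmin]
    rw [← Subgroup.orderOf_coe, hφ.orderOf_eq hk]
    exact (Subgroup.orderOf_coe (u ^ k)).trans_lt h7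
  have hNπ : gN Subgroup.le_normalizer ≤ π.ker := fun d hd =>
    (hπ d).2 (by rw [show gsndS _ d = 1 from Subtype.ext hd]; exact M.one_mem)
  rw [trf_orbit_eq_prod gN_normal h.free hl π hNπ x hxπ (fun c => gdiag _ c.out)
    (fun c => c.out_eq) ((hπ _).2 huM)] at hx
  let μ : M →* B := (trfHom gN_normal h.free hl ((sInv_orbit π.ker x).mono hNπ)
    (sInv_orbit π.ker x)).comp (((gdiag Subgroup.le_normalizer).comp M.subtype).codRestrict π.ker
      fun q => (hπ _).2 q.2)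
  exact exists_wreath_of_norm hS hB M hMi μ ⟨u, huM⟩ hx

end Cfsg.Agent.H8
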